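import Cfsg.Agent.Lib.KC2.R11.Sv

set_option autoImplicit false
set_option maxRecDepth 100000
set_option Elab.async false

namespace Cfsg.Agent.KC2.R11

theorem p2 : Part (nat_lit 0x300000003010000000004000000040100000000050000000502000000005e0000005e0100000000a6000000a60100000000000000000000)
    (nat_lit 0x30000000301000000000400000004010000000005000000050200000000790000000b020000002312000000860100000000000000000000) := by
  unfold Part; decide +kernel

theorem p3 : Part (nat_lit 0x30000000301000000000400000004010000000005000000050200000000790000000b020000002312000000860100000000000000000000)
    (nat_lit 0x300000003010000000004000000040100000000050000000502000000009e0000009e01000000013c0000009e01000000014c000000a601) := by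
  unfold Part; decide +kernel

end Cfsg.Agent.KC2.R11
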