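import Cfsg.Agent.Lib.KC2.R11.Sv

set_option autoImplicit false
set_option maxRecDepth 100000
set_option Elab.async false

namespace Cfsg.Agent.KC2.R11

theorem p24 : Part (nat_lit 0x30000000301000000000500000005020000000008000000040100000000080000000401000000008f0000008f01000000008f0000000b01)
    (nat_lit 0x300000003010000000005000000050200000000080000000401000000000e0000000e01000000001c0000000e0100000000200000000401) := by
  unfold Part; decide +kernel

theorem p25 : Part (nat_lit 0x300000003010000000005000000050200000000080000000401000000000e0000000e01000000001c0000000e0100000000200000000401)
    (nat_lit 0x300000003010000000005000000050200000000080000000401000000001000000004020000000080000000020100000000880000002201) := by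
  unfold Part; decide +kernel

end Cfsg.Agent.KC2.R11
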