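import Cfsg.Agent.Lib.KC2.R11.Sv

set_option autoImplicit false
set_option maxRecDepth 100000
set_option Elab.async false

namespace Cfsg.Agent.KC2.R11

theorem p28 : Part (nat_lit 0x300000003010000000005000000050200000000080000000402000000004000000004010000000430000000860100000040000000000201)
    (nat_lit 0x300000003010000000005000000050200000000080000000402000000005c0000002e0100000000b0000000160100000000000000000000) := by
  unfold Part; decide +kernel

theorem p29 : Part (nat_lit 0x300000003010000000005000000050200000000080000000402000000005c0000002e0100000000b0000000160100000000000000000000)
    (nat_lit 0x300000003010000000005000000050200000000080000000402000000008000000004010000000100000000020100000001100000002201) := by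
  unfold Part; decide +kernel

end Cfsg.Agent.KC2.R11
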