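import Cfsg.Agent.Lib.KC2.R11.Sv

set_option autoImplicit false
set_option maxRecDepth 100000
set_option Elab.async false

namespace Cfsg.Agent.KC2.R11

theorem p34 : Part (nat_lit 0x30000000301000000000500000005020000000008000000080100000000080000000401000000008e0000008e01000000009e0000009e01)
    (nat_lit 0x300000003010000000005000000050200000000080000000801000000000800000008010000000040000000040100000004000000001001) := by
  unfold Part; decide +kernel

theorem p35 : Part (nat_lit 0x300000003010000000005000000050200000000080000000801000000000800000008010000000040000000040100000004000000001001)
    (nat_lit 0x300000003010000000005000000050200000000080000000801000000000800000008010000000080000000040100000000800000000201) := by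
  unfold Part; decide +kernel

end Cfsg.Agent.KC2.R11
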