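import Cfsg.Agent.Lib.KC2.R11.Sv

set_option autoImplicit false
set_option maxRecDepth 100000
set_option Elab.async false

namespace Cfsg.Agent.KC2.R11

theorem p36 : Part (nat_lit 0x300000003010000000005000000050200000000080000000801000000000800000008010000000080000000040100000000800000000201)
    (nat_lit 0x300000003010000000005000000050200000000080000000801000000000f0000000f010000000020000000040100000000200000000201) := by
  unfold Part; decide +kernel

theorem p37 : Part (nat_lit 0x300000003010000000005000000050200000000080000000801000000000f0000000f010000000020000000040100000000200000000201)
    (nat_lit 0x300000003010000000005000000050200000000080000000801000000001000000008010000000010000000040100000000400000000801) := by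
  unfold Part; decide +kernel

end Cfsg.Agent.KC2.R11
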