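import Cfsg.Agent.Lib.KC2.R11.Sv

set_option autoImplicit false
set_option maxRecDepth 100000
set_option Elab.async false

namespace Cfsg.Agent.KC2.R11

theorem p4 : Part (nat_lit 0x300000003010000000004000000040100000000050000000502000000009e0000009e01000000013c0000009e01000000014c000000a601)
    (nat_lit 0x30000000301000000000400000004010000000005000000050200000000ec000000760100000000ec000000760100000000f20000001601) := by
  unfold Part; decide +kernel

theorem p5 : Part (nat_lit 0x30000000301000000000400000004010000000005000000050200000000ec000000760100000000ec000000760100000000f20000001601)
    (nat_lit 0x300000003010000000004000000040100000000070000000702000000000a0000000a0100000000320000000501000000007d0000001901) := by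
  unfold Part; decide +kernel

end Cfsg.Agent.KC2.R11
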