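import Cfsg.Agent.Lib.KC2.R11.Sv

set_option autoImplicit false
set_option maxRecDepth 100000
set_option Elab.async false

namespace Cfsg.Agent.KC2.R11

theorem p40 : Part (nat_lit 0x3000000030100000000050000000502000000000800000008020000000040000000080100000003c8000000160100000400000000000401)
    (nat_lit 0x300000003010000000005000000050200000000080000000802000000008000000010010000000100000000040100000001000000000401) := by
  unfold Part; decide +kernel

theorem p41 : Part (nat_lit 0x300000003010000000005000000050200000000080000000802000000008000000010010000000100000000040100000001000000000401)
    (nat_lit 0x3000000030100000000050000000502000000000d0000000d02000000001000000004010000000020000000040100000000400000000201) := by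
  unfold Part; decide +kernel

end Cfsg.Agent.KC2.R11
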