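import Cfsg.Agent.Lib.KC2.R11.Sv

set_option autoImplicit false
set_option maxRecDepth 100000
set_option Elab.async false

namespace Cfsg.Agent.KC2.R11

theorem p56 : Part (nat_lit 0x300000003010000000008000000040100000000080000000401000000000a0000000a01000000000a0000000a0100000000100000000402)
    (nat_lit 0x3000000030100000000080000000401000000000800000004020000000010000000020100000000140000000a0100000000140000000501) := by
  unfold Part; decide +kernel

theorem p57 : Part (nat_lit 0x3000000030100000000080000000401000000000800000004020000000010000000020100000000140000000a0100000000140000000501)
    (nat_lit 0x3000000030100000000080000000402000000000800000004020000000008000000020100000000380000000e0100000000380000000701) := by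
  unfold Part; decide +kernel

end Cfsg.Agent.KC2.R11
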