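import Cfsg.Agent.Lib.KC2.R11.Sv

set_option autoImplicit false
set_option maxRecDepth 100000
set_option Elab.async false

namespace Cfsg.Agent.KC2.R11

theorem p64 : Part (nat_lit 0x300000003010000000008000000080100000000080000000801000000000800000008010000000008000000040100000000140000000a02)
    (nat_lit 0x3000000030100000000080000000801000000000800000008010000000008000000080200000000080000000401000000001a0000001a01) := by
  unfold Part; decide +kernel

theorem p65 : Part (nat_lit 0x3000000030100000000080000000801000000000800000008010000000008000000080200000000080000000401000000001a0000001a01)
    (nat_lit 0x30000000301000000000800000008010000000008000000080200000000080000000401000000000a0000000a0100000000280000000a02) := by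
  unfold Part; decide +kernel

end Cfsg.Agent.KC2.R11
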