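import Cfsg.Agent.Lib.KC2.R11.Sv

set_option autoImplicit false
set_option maxRecDepth 100000
set_option Elab.async false

namespace Cfsg.Agent.KC2.R11

theorem p82 : Part (nat_lit 0x400000004010000000005000000050100000000090000000301000000000000000000000000000000000000000000000000000000000000)
    (nat_lit 0x400000004010000000005000000050100000000090000000902000000000c0000000601000000000c000000060200000000180000000201) := by
  unfold Part; decide +kernel

theorem p83 : Part (nat_lit 0x400000004010000000005000000050100000000090000000902000000000c0000000601000000000c000000060200000000180000000201)
    (nat_lit 0x4000000040100000000050000000502000000000600000006010000000006000000030100000000f2000000160100000000f20000000b01) := by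
  unfold Part; decide +kernel

end Cfsg.Agent.KC2.R11
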