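import Cfsg.Agent.Lib.KC2.R11.Sv

set_option autoImplicit false
set_option maxRecDepth 100000
set_option Elab.async false

namespace Cfsg.Agent.KC2.R11

theorem p86 : Part (nat_lit 0x40000000401000000000500000005020000000006000000060100000000090000000901000000000e0000000e01000000055c0000000e01)
    (nat_lit 0x400000004010000000005000000050200000000060000000601000000000c000000060100000000180000000201000000001c0000000e01) := by
  unfold Part; decide +kernel

theorem p87 : Part (nat_lit 0x400000004010000000005000000050200000000060000000601000000000c000000060100000000180000000201000000001c0000000e01)
    (nat_lit 0x400000004010000000005000000050200000000060000000601000000001200000006020000000012000000030100000000510000000301) := by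
  unfold Part; decide +kernel

end Cfsg.Agent.KC2.R11
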