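import Cfsg.Agent.Lib.KC2.R11.Sv

set_option autoImplicit false
set_option maxRecDepth 100000
set_option Elab.async false

namespace Cfsg.Agent.KC2.R11

theorem p88 : Part (nat_lit 0x400000004010000000005000000050200000000060000000601000000001200000006020000000012000000030100000000510000000301)
    (nat_lit 0x400000004010000000005000000050200000000060000000602000000006a0000006a0100000000a2000000030100000005b20000000301) := by
  unfold Part; decide +kernel

theorem p89 : Part (nat_lit 0x400000004010000000005000000050200000000060000000602000000006a0000006a0100000000a2000000030100000005b20000000301)
    (nat_lit 0x40000000401000000000500000005020000000007000000070100000000090000000301000000000c000000060100000000f20000001601) := by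
  unfold Part; decide +kernel

end Cfsg.Agent.KC2.R11
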