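import Cfsg.Agent.Lib.KC2.R11.Sv

set_option autoImplicit false
set_option maxRecDepth 100000
set_option Elab.async false

namespace Cfsg.Agent.KC2.R11

theorem p90 : Part (nat_lit 0x40000000401000000000500000005020000000007000000070100000000090000000301000000000c000000060100000000f20000001601)
    (nat_lit 0x40000000401000000000500000005020000000007000000070200000000120000000601000000010c000000860100000000000000000000) := by
  unfold Part; decide +kernel

theorem p91 : Part (nat_lit 0x40000000401000000000500000005020000000007000000070200000000120000000601000000010c000000860100000000000000000000)
    (nat_lit 0x40000000401000000000500000005020000000009000000030100000000090000000302000000004a0000004a0100000000000000000000) := by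
  unfold Part; decide +kernel

end Cfsg.Agent.KC2.R11
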