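import Cfsg.Agent.Lib.KC2.R11.Sv

set_option autoImplicit false
set_option maxRecDepth 100000
set_option Elab.async false

namespace Cfsg.Agent.KC2.R11

theorem p94 : Part (nat_lit 0x4000000040100000000050000000502000000000b0000000b02000000000c00000006010000000012000000060100000000360000000301)
    (nat_lit 0x40000000401000000000600000006010000000006000000030100000000080000000201000000000e0000000e03000000001c0000000e01) := by
  unfold Part; decide +kernel

theorem p95 : Part (nat_lit 0x40000000401000000000600000006010000000006000000030100000000080000000201000000000e0000000e03000000001c0000000e01)
    (nat_lit 0x400000004010000000006000000060100000000060000000601000000000700000007020000000000000000000000000000000000000000) := by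
  unfold Part; decide +kernel

end Cfsg.Agent.KC2.R11
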