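import Cfsg.Agent.Lib.KC2.R11.Sv

set_option autoImplicit false
set_option maxRecDepth 100000
set_option Elab.async false

namespace Cfsg.Agent.KC2.R11

theorem p10 : Part (nat_lit 0x300000003010000000005000000050100000000070000000701000000000800000008020000000020000000040200000001000000000201)
    (nat_lit 0x300000003010000000005000000050100000000070000000702000000000800000008010000000040000000080100000000400000000402) := by
  unfold Part; decide +kernel

theorem p11 : Part (nat_lit 0x300000003010000000005000000050100000000070000000702000000000800000008010000000040000000080100000000400000000402)
    (nat_lit 0x3000000030100000000050000000501000000000700000007030000000040000000040100000000400000000401000000010c0000008601) := by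
  unfold Part; decide +kernel

end Cfsg.Agent.KC2.R11
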