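import Cfsg.Agent.Lib.KC2.R11.Sv

set_option autoImplicit false
set_option maxRecDepth 100000
set_option Elab.async false

namespace Cfsg.Agent.KC2.R11

theorem p104 : Part (nat_lit 0x400000004010000000006000000060200000000070000000701000000000900000009010000000012000000030100000000120000000301)
    (nat_lit 0x400000004010000000006000000060200000000070000000702000000001200000006010000000024000000060100000000360000000301) := by
  unfold Part; decide +kernel

theorem p105 : Part (nat_lit 0x400000004010000000006000000060200000000070000000702000000001200000006010000000024000000060100000000360000000301)
    (nat_lit 0x400000004010000000006000000060200000000090000000301000000000a0000000a02000000000a000000050100000000000000000000) := by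
  unfold Part; decide +kernel

end Cfsg.Agent.KC2.R11
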