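import Cfsg.Agent.Lib.KC2.R11.Sv

set_option autoImplicit false
set_option maxRecDepth 100000
set_option Elab.async false

namespace Cfsg.Agent.KC2.R11

theorem p120 : Part (nat_lit 0x500000005010000000006000000060100000000080000000402000000000900000003010000000009000000030100000000120000000302)
    (nat_lit 0x500000005010000000006000000060100000000080000000801000000000800000008010000000008000000040100000000090000000301) := by
  unfold Part; decide +kernel

theorem p121 : Part (nat_lit 0x500000005010000000006000000060100000000080000000801000000000800000008010000000008000000040100000000090000000301)
    (nat_lit 0x500000005010000000006000000060100000000080000000802000000000800000004010000000010000000040100000000100000000401) := by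
  unfold Part; decide +kernel

end Cfsg.Agent.KC2.R11
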