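import Cfsg.Agent.Lib.KC2.R11.Sv

set_option autoImplicit false
set_option maxRecDepth 100000
set_option Elab.async false

namespace Cfsg.Agent.KC2.R11

theorem p124 : Part (nat_lit 0x500000005010000000006000000060200000000060000000301000000000e0000000e01000000000e0000000e01000000000e0000000702)
    (nat_lit 0x500000005010000000006000000060200000000070000000701000000000900000003020000000012000000030100000000200000000801) := by
  unfold Part; decide +kernel

theorem p125 : Part (nat_lit 0x500000005010000000006000000060200000000070000000701000000000900000003020000000012000000030100000000200000000801)
    (nat_lit 0x500000005010000000006000000060200000000080000000401000000000800000004010000000012000000030100000000130000001301) := by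
  unfold Part; decide +kernel

end Cfsg.Agent.KC2.R11
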