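import Cfsg.Agent.Lib.KC2.R11.Sv

set_option autoImplicit false
set_option maxRecDepth 100000
set_option Elab.async false

namespace Cfsg.Agent.KC2.R11

theorem p128 : Part (nat_lit 0x500000005010000000006000000060200000000080000000802000000001000000004010000000010000000020100000000000000000000)
    (nat_lit 0x50000000501000000000700000007010000000008000000080100000000080000000401000000000c0000000602000000000d0000000d01) := by
  unfold Part; decide +kernel

theorem p129 : Part (nat_lit 0x50000000501000000000700000007010000000008000000080100000000080000000401000000000c0000000602000000000d0000000d01)
    (nat_lit 0x500000005010000000007000000070200000000080000000801000000000800000004020000000009000000030100000000260000002601) := by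
  unfold Part; decide +kernel

end Cfsg.Agent.KC2.R11
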