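import Cfsg.Agent.Lib.KC2.R11.Sv

set_option autoImplicit false
set_option maxRecDepth 100000
set_option Elab.async false

namespace Cfsg.Agent.KC2.R11

theorem p130 : Part (nat_lit 0x500000005010000000007000000070200000000080000000801000000000800000004020000000009000000030100000000260000002601)
    (nat_lit 0x50000000501000000000800000002010000000009000000030100000000090000000301000000000c0000000601000000000c0000000601) := by
  unfold Part; decide +kernel

theorem p131 : Part (nat_lit 0x50000000501000000000800000002010000000009000000030100000000090000000301000000000c0000000601000000000c0000000601)
    (nat_lit 0x500000005010000000008000000040200000000080000000201000000000900000003010000000009000000030100000000000000000000) := by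
  unfold Part; decide +kernel

end Cfsg.Agent.KC2.R11
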