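import Cfsg.Agent.Lib.KC2.R11.Sv

set_option autoImplicit false
set_option maxRecDepth 100000
set_option Elab.async false

namespace Cfsg.Agent.KC2.R11

theorem p14 : Part (nat_lit 0x300000003010000000005000000050100000000080000000401000000000800000004020000000020000000040200000000400000000801)
    (nat_lit 0x300000003010000000005000000050100000000080000000402000000000e0000000e0300000001c00000000e0100000000000000000000) := by
  unfold Part; decide +kernel

theorem p15 : Part (nat_lit 0x300000003010000000005000000050100000000080000000402000000000e0000000e0300000001c00000000e0100000000000000000000)
    (nat_lit 0x30000000301000000000500000005010000000008000000080100000000080000000401000000000b0000000b0200000000200000000801) := by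
  unfold Part; decide +kernel

end Cfsg.Agent.KC2.R11
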