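import Cfsg.Agent.Lib.KC2.R11.Sv

set_option autoImplicit false
set_option maxRecDepth 100000
set_option Elab.async false

namespace Cfsg.Agent.KC2.R11

theorem p142 : Part (nat_lit 0x500000005020000000006000000060100000000070000000702000000000900000009010000000036000000030100000000520000005201)
    (nat_lit 0x500000005020000000006000000060100000000080000000201000000001200000006010000000012000000060100000000120000000301) := by
  unfold Part; decide +kernel

theorem p143 : Part (nat_lit 0x500000005020000000006000000060100000000080000000201000000001200000006010000000012000000060100000000120000000301)
    (nat_lit 0x500000005020000000006000000060100000000080000000401000000000900000003010000000009000000030100000000180000000601) := by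
  unfold Part; decide +kernel

end Cfsg.Agent.KC2.R11
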