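import Cfsg.Agent.Lib.KC2.R11.Sv

set_option autoImplicit false
set_option maxRecDepth 100000
set_option Elab.async false

namespace Cfsg.Agent.KC2.R11

theorem p154 : Part (nat_lit 0x500000005020000000006000000060200000000090000000301000000000900000003010000000020000000020100000000d80000000601)
    (nat_lit 0x50000000502000000000600000006020000000009000000090100000000090000000901000000001b000000030100000000d80000000601) := by
  unfold Part; decide +kernel

theorem p155 : Part (nat_lit 0x50000000502000000000600000006020000000009000000090100000000090000000901000000001b000000030100000000d80000000601)
    (nat_lit 0x5000000050200000000060000000602000000000c0000000602000000002400000003010000000000000000000000000000000000000000) := by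
  unfold Part; decide +kernel

end Cfsg.Agent.KC2.R11
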