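import Cfsg.Agent.Lib.KC2.R11.Sv

set_option autoImplicit false
set_option maxRecDepth 100000
set_option Elab.async false

namespace Cfsg.Agent.KC2.R11

theorem p156 : Part (nat_lit 0x5000000050200000000060000000602000000000c0000000602000000002400000003010000000000000000000000000000000000000000)
    (nat_lit 0x50000000502000000000700000007010000000008000000040200000000090000000901000000000c000000060100000000510000000301) := by
  unfold Part; decide +kernel

theorem p157 : Part (nat_lit 0x50000000502000000000700000007010000000008000000040200000000090000000901000000000c000000060100000000510000000301)
    (nat_lit 0x5000000050200000000070000000701000000000c0000000601000000000c0000000601000000000c000000030100000000000000000000) := by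
  unfold Part; decide +kernel

end Cfsg.Agent.KC2.R11
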