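import Cfsg.Agent.Lib.KC2.R11.Sv

set_option autoImplicit false
set_option maxRecDepth 100000
set_option Elab.async false

namespace Cfsg.Agent.KC2.R11

theorem p16 : Part (nat_lit 0x30000000301000000000500000005010000000008000000080100000000080000000401000000000b0000000b0200000000200000000801)
    (nat_lit 0x30000000301000000000500000005010000000008000000080100000000080000000402000000001a0000001a0200000000680000000201) := by
  unfold Part; decide +kernel

theorem p17 : Part (nat_lit 0x30000000301000000000500000005010000000008000000080100000000080000000402000000001a0000001a0200000000680000000201)
    (nat_lit 0x300000003010000000005000000050100000000080000000801000000000800000008010000000008000000080100000000200000001002) := by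
  unfold Part; decide +kernel

end Cfsg.Agent.KC2.R11
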