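import Cfsg.Agent.Lib.KC2.R11.Sv

set_option autoImplicit false
set_option maxRecDepth 100000
set_option Elab.async false

namespace Cfsg.Agent.KC2.R11

theorem p176 : Part (nat_lit 0x6000000060100000000070000000701000000000800000008010000000008000000080200000000080000000401000000000a0000000a01)
    (nat_lit 0x600000006010000000007000000070200000000080000000402000000000f0000000f01000000000f000000030100000000000000000000) := by
  unfold Part; decide +kernel

theorem p177 : Part (nat_lit 0x600000006010000000007000000070200000000080000000402000000000f0000000f01000000000f000000030100000000000000000000)
    (nat_lit 0x600000006010000000007000000070300000000090000000301000000000900000003010000000009000000030100000000180000000201) := by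
  unfold Part; decide +kernel

end Cfsg.Agent.KC2.R11
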