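import Cfsg.Agent.Lib.KC2.R11.Sv

set_option autoImplicit false
set_option maxRecDepth 100000
set_option Elab.async false

namespace Cfsg.Agent.KC2.R11

theorem p186 : Part (nat_lit 0x600000006020000000007000000070100000000080000000402000000000900000003020000000018000000020100000000a20000000301)
    (nat_lit 0x600000006020000000007000000070200000000080000000201000000000900000003010000000012000000030100000000120000000301) := by
  unfold Part; decide +kernel

theorem p187 : Part (nat_lit 0x600000006020000000007000000070200000000080000000201000000000900000003010000000012000000030100000000120000000301)
    (nat_lit 0x600000006020000000007000000070300000000080000000401000000000900000009010000000200000000040100000099c60000000301) := by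
  unfold Part; decide +kernel

end Cfsg.Agent.KC2.R11
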