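import Cfsg.Agent.Lib.KC2.R11.Sv

set_option autoImplicit false
set_option maxRecDepth 100000
set_option Elab.async false

namespace Cfsg.Agent.KC2.R11

theorem p192 : Part (nat_lit 0x600000006020000000009000000090200000000090000000902000000000900000003010000000000000000000000000000000000000000)
    (nat_lit 0x70000000701000000000900000003010000000009000000030200000000090000000302000000000c000000060200000000000000000000) := by
  unfold Part; decide +kernel

theorem p193 : Part (nat_lit 0x70000000701000000000900000003010000000009000000030200000000090000000302000000000c000000060200000000000000000000)
    (nat_lit 0x700000007020000000008000000080200000000090000000301000000000900000003010000000009000000030100000000100000000401) := by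
  unfold Part; decide +kernel

end Cfsg.Agent.KC2.R11
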